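import Groth.Prelude.Def_SGA1t
import Groth.Agent.Pi1.H413.SecChart

/-!
# Affine charts of a relative strict normal crossings divisor

From `SGA1t.IsRelSNC f φ` at a point `x` where some `φ i` vanishes we extract affine opens `U` of the
base and `V ∋ x` of `X`, and an étale ring map `Γ(S, U)[t_1, …, t_d] → Γ(X, V)` sending distinct
coordinates to the `φ i` vanishing at `x`.
-/

set_option autoImplicit false
universe u

open AlgebraicGeometry CategoryTheory CategoryTheory.Limits Groth.Agent.Pi1.H413.SecChart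

namespace Groth.Agent.Pi1.H411.Chart

/-- `homOfVector` over an affine base with affine source is étale iff the ring map is. -/
theorem etale_eval₂Hom_of_isAffine {n : Type u} {V U : Scheme.{u}} [IsAffine U] [IsAffine V] (p : V ⟶ U)
    (v : n → Γ(V, ⊤)) (h : Etale (AffineSpace.homOfVector p v)) :
    (MvPolynomial.eval₂Hom p.appTop.hom v).Etale := by
  rw [← MorphismProperty.cancel_right_of_respectsIso (P := @Etale) _
    (AffineSpace.isoOfIsAffine n U).hom, homOfVector_isoOfIsAffine_hom,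
    MorphismProperty.cancel_left_of_respectsIso (P := @Etale), HasRingHomProperty.Spec_iff (P := @Etale)] at h
  exact h

theorem resLE_appTop_topIso {X S : Scheme.{u}} (f : X ⟶ S) (U : S.Opens)
    (V : X.Opens) (hVU : V ≤ f ⁻¹ᵁ U) :
    U.topIso.inv ≫ (f.resLE U V hVU).appTop ≫ V.topIso.hom = f.appLE U V hVU := by
  rw [Scheme.Hom.appTop, Scheme.Hom.app_eq_appLE, Scheme.Hom.resLE_appLE, Scheme.Opens.topIso_inv,
    Scheme.Opens.topIso_hom]
  exact (congrArg (S.presheaf.map _ ≫ ·) (Scheme.Hom.appLE_map f _ _)).trans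
    (Scheme.Hom.map_appLE f _ _)

theorem homOfLE_appTop_topIso {X : Scheme.{u}} (V W : X.Opens) (hVW : V ≤ W) :
    (X.homOfLE hVW).appTop ≫ V.topIso.hom = W.topIso.hom ≫ X.presheaf.map (homOfLE hVW).op := by
  rw [Scheme.homOfLE_appTop, Scheme.Opens.topIso_hom, Scheme.Opens.topIso_hom]
  exact ((X.presheaf.map_comp _ _).symm).trans ((congrArg X.presheaf.map (Subsingleton.elim _ _)).trans
    (X.presheaf.map_comp _ _))

/-- Étale morphisms to affine space, restricted to affine opens, in terms of rings. -/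
theorem etale_eval₂Hom_appLE {X S : Scheme.{u}} (f : X ⟶ S) (U : S.Opens) (hU : IsAffineOpen U)
    (V : X.Opens) (hV : IsAffineOpen V) (hVU : V ≤ f ⁻¹ᵁ U) (W : X.Opens) (hVW : V ≤ W) {n : Type u}
    (v : n → Γ(W, ⊤)) (h : Etale (AffineSpace.homOfVector (W.ι ≫ f) v)) :
    (MvPolynomial.eval₂Hom (f.appLE U V hVU).hom
      (fun j => X.presheaf.map (homOfLE hVW).op (W.topIso.hom (v j)))).Etale := by
  have : IsAffine (U : Scheme.{u}) := hU
  have : IsAffine (V : Scheme.{u}) := hV
  have h1 : Etale (AffineSpace.homOfVector (f.resLE U V hVU) ((X.homOfLE hVW).appTop ∘ v)) :=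
    etale_homOfVector_restrict (W.ι ≫ f) (f.resLE U V hVU) (X.homOfLE hVW) U.ι (by simp) v
  have h2 := etale_eval₂Hom_of_isAffine _ _ h1
  have h3 : MvPolynomial.eval₂Hom (f.appLE U V hVU).hom
      (fun j => X.presheaf.map (homOfLE hVW).op (W.topIso.hom (v j))) =
      (V.topIso.hom.hom.comp (MvPolynomial.eval₂Hom (f.resLE U V hVU).appTop.hom
        ((X.homOfLE hVW).appTop ∘ v))).comp
        (MvPolynomial.mapEquiv n U.topIso.symm.commRingCatIsoToRingEquiv).toRingHom := by
    apply MvPolynomial.ringHom_ext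
    · intro r
      simp only [MvPolynomial.eval₂Hom_C]
      have := congr($(resLE_appTop_topIso f U V hVU).hom r)
      rw [← this]
      simp
    · intro j
      have := congr($(homOfLE_appTop_topIso V W hVW).hom (v j))
      simp only [MvPolynomial.eval₂Hom_X']
      refine this.symm.trans ?_
      simp
  rw [h3]
  refine (RingHom.Etale.respectsIso).2 _ _ ?_
  exact (RingHom.Etale.respectsIso).1 _ V.topIso.commRingCatIsoToRingEquiv h2

/-- Affine charts of a relative strict normal crossings divisor at a point where some `φ i` vanishes. -/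
theorem exists_chart {X S : Scheme.{u}} (f : X ⟶ S) {r : ℕ} (φ : Fin r → Γ(X, ⊤))
    (hD : SGA1t.IsRelSNC f φ) (x : X) (hx : Nonempty (SGA1t.vanishingAt φ x)) :
    ∃ (U : S.Opens) (_ : IsAffineOpen U) (V : X.Opens) (_ : IsAffineOpen V) (hVU : V ≤ f ⁻¹ᵁ U)
      (_ : x ∈ V) (d : ℕ) (v : ULift.{u} (Fin d) → Γ(X, V)) (e : SGA1t.vanishingAt φ x → Fin d),
      Function.Injective e ∧ (MvPolynomial.eval₂Hom (f.appLE U V hVU).hom v).Etale ∧
      ∀ i, v (ULift.up (e i)) = X.presheaf.map (homOfLE le_top).op (φ i.1) := by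
  obtain ⟨W, hxW, d, v, e, he, hE, hv⟩ := hD x hx
  obtain ⟨U, hU, hxU, -⟩ := exists_isAffineOpen_mem_and_subset (x := f x) (U := ⊤) trivial
  obtain ⟨V, hV, hxV, hVle⟩ := exists_isAffineOpen_mem_and_subset (x := x) (U := W ⊓ f ⁻¹ᵁ U)
    ⟨hxW, hxU⟩
  have hVW : V ≤ W := fun y hy => (hVle hy).1
  have hVU : V ≤ f ⁻¹ᵁ U := fun y hy => (hVle hy).2
  refine ⟨U, hU, V, hV, hVU, hxV, d, fun j => X.presheaf.map (homOfLE hVW).op (W.topIso.hom (v j)), e,
    he, etale_eval₂Hom_appLE f U hU V hV hVU W hVW v hE, fun i => ?_⟩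
  have h1 : W.topIso.hom (v (ULift.up (e i))) = X.presheaf.map (homOfLE le_top).op (φ i.1) := by
    refine (congrArg (fun z => W.topIso.hom z) (hv i)).trans ?_
    exact congr($(W.topIso.inv_hom_id).hom _)
  refine (congrArg (fun z => X.presheaf.map (homOfLE hVW).op z) h1).trans ?_
  exact congr($((X.presheaf.map_comp (homOfLE le_top).op (homOfLE hVW).op).symm).hom _)

end Groth.Agent.Pi1.H411.Chart
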