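import Groth.Prelude.Def_SGA1t
import Mathlib.RingTheory.Etale.Basic

/-!
# Kummer algebras along coordinates are formally smooth

If `R₀[t_1, …, t_d] → A` is formally étale and `a_i` is the image of the coordinate `t_{e i}` (`e` injective),
then the Kummer algebra `A[T_i]/(T_i^{n_i} - a_i)` is formally smooth over `R₀`, for arbitrary exponents.
-/

set_option autoImplicit false
universe u

open MvPolynomial

namespace Groth.Agent.Pi1.H411.KumSmooth

/-- Kummer algebras along distinct coordinates of a formally étale chart are formally smooth. -/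
theorem formallySmooth_kummer {R₀ A : Type u} [CommRing R₀] [CommRing A] {J : Type u} {ι : Type}
    [Algebra R₀ A] [Algebra (MvPolynomial J R₀) A] [IsScalarTower R₀ (MvPolynomial J R₀) A]
    [Algebra.FormallyEtale (MvPolynomial J R₀) A] (e : ι → J) (he : Function.Injective e) (a : ι → A)
    (ha : ∀ i, algebraMap (MvPolynomial J R₀) A (X (e i)) = a i) (n : ι → ℕ) :
    Algebra.FormallySmooth R₀ (SGA1t.kummer A a n) := by
  classical
  refine .of_comp_surjective fun C _ _ I hI g => ?_
  -- the images of the roots `T i`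
  let T : ι → SGA1t.kummer A a n := fun i => Ideal.Quotient.mk _ (X i)
  have hT : ∀ i, T i ^ n i = algebraMap A _ (a i) := fun i => by
    have h1 : Ideal.Quotient.mk (Ideal.span (Set.range fun i =>
        (MvPolynomial.X i : MvPolynomial ι A) ^ n i - MvPolynomial.C (a i)))
        ((MvPolynomial.X i : MvPolynomial ι A) ^ n i - MvPolynomial.C (a i)) = 0 :=
      Ideal.Quotient.eq_zero_iff_mem.mpr (Ideal.subset_span ⟨i, rfl⟩)
    rw [map_sub, sub_eq_zero, map_pow] at h1
    exact h1
  have hmk : Function.Surjective (Ideal.Quotient.mk I) := Ideal.Quotient.mk_surjective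
  choose t ht using fun i => hmk (g (T i))
  choose c₀ hc₀ using fun j => hmk (g (algebraMap A _ (algebraMap (MvPolynomial J R₀) A (X j))))
  let c : J → C := fun j => if h : ∃ i, e i = j then t h.choose ^ n h.choose else c₀ j
  have hc1 : ∀ i, c (e i) = t i ^ n i := fun i => by
    have h : ∃ i', e i' = e i := ⟨i, rfl⟩
    have h2 : h.choose = i := he h.choose_spec
    simp only [c, dif_pos h, h2]
  have hc2 : ∀ j, Ideal.Quotient.mk I (c j) =
      g (algebraMap A _ (algebraMap (MvPolynomial J R₀) A (X j))) := fun j => by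
    by_cases h : ∃ i, e i = j
    · obtain ⟨i, rfl⟩ := h
      rw [hc1, map_pow, ht, ← map_pow, hT, ha]
    · simp only [c, dif_neg h, hc₀]
  let ψ : MvPolynomial J R₀ →ₐ[R₀] C := aeval c
  let g₀ : A →ₐ[R₀] C ⧸ I := g.comp (IsScalarTower.toAlgHom R₀ A _)
  let _ : Algebra (MvPolynomial J R₀) C := ψ.toRingHom.toAlgebra
  have _ : IsScalarTower R₀ (MvPolynomial J R₀) C := IsScalarTower.of_algebraMap_eq' ψ.comp_algebraMap.symm
  have hcomm : ∀ p : MvPolynomial J R₀, g₀ (algebraMap _ A p) = algebraMap (MvPolynomial J R₀) (C ⧸ I) p := by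
    intro p
    have h1 : g₀.comp (IsScalarTower.toAlgHom R₀ (MvPolynomial J R₀) A) =
        (Ideal.Quotient.mkₐ R₀ I).comp ψ := by
      apply MvPolynomial.algHom_ext
      intro j
      simp only [AlgHom.comp_apply, ψ, aeval_X, g₀]
      exact (hc2 j).symm
    exact congr($h1 p)
  let g₁ : A →ₐ[MvPolynomial J R₀] C ⧸ I := { g₀ with commutes' := hcomm }
  obtain ⟨h, hh⟩ := Algebra.FormallySmooth.comp_surjective (MvPolynomial J R₀) A I hI g₁
  have hh' : ∀ x : A, Ideal.Quotient.mk I (h x) = g (algebraMap A _ x) := fun x => congr($hh x)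
  let h₀ : A →ₐ[R₀] C := h.restrictScalars R₀
  have hha : ∀ i, h (a i) = t i ^ n i := fun i => by
    rw [← ha, h.commutes, ← hc1]
    exact aeval_X _ _
  -- the lift on the polynomial ring
  let Φ : MvPolynomial ι A →+* C := eval₂Hom (h : A →+* C) t
  have hΦ : ∀ q ∈ Ideal.span (Set.range fun i =>
        (MvPolynomial.X i : MvPolynomial ι A) ^ n i - MvPolynomial.C (a i)), Φ q = 0 := by
    intro q hq
    have hle : Ideal.span (Set.range fun i =>
        (MvPolynomial.X i : MvPolynomial ι A) ^ n i - MvPolynomial.C (a i)) ≤ RingHom.ker Φ := by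
      rw [Ideal.span_le]
      rintro _ ⟨i, rfl⟩
      simp only [SetLike.mem_coe, RingHom.mem_ker, Φ, map_sub, map_pow, eval₂Hom_X', eval₂Hom_C]
      rw [sub_eq_zero]
      exact (hha i).symm
    exact hle hq
  let Ψ : SGA1t.kummer A a n →+* C := Ideal.Quotient.lift _ Φ hΦ
  have hΨA : ∀ x : A, Ψ (algebraMap A _ x) = h x := fun x => by
    change Ψ (Ideal.Quotient.mk _ (MvPolynomial.C x)) = _
    simp only [Ψ, Ideal.Quotient.lift_mk, Φ, eval₂Hom_C]
    rfl
  have hΨT : ∀ i, Ψ (T i) = t i := fun i => by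
    simp only [Ψ, T, Ideal.Quotient.lift_mk, Φ, eval₂Hom_X']
  refine ⟨{ Ψ with commutes' := fun r => ?_ }, ?_⟩
  · change Ψ (algebraMap R₀ _ r) = _
    rw [IsScalarTower.algebraMap_apply R₀ A (SGA1t.kummer A a n), hΨA]
    exact h₀.commutes r
  · apply AlgHom.coe_ringHom_injective
    apply Ideal.Quotient.ringHom_ext
    apply MvPolynomial.ringHom_ext
    · intro x
      exact (congrArg (Ideal.Quotient.mk I) (hΨA x)).trans (hh' x)
    · intro i
      exact (congrArg (Ideal.Quotient.mk I) (hΨT i)).trans (ht i)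

end Groth.Agent.Pi1.H411.KumSmooth
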